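import Cfsg.Agent.PermutationGroups.OnanScott

/-!
# Point stabilisers on a non-abelian minimal normal subgroup, with explicit coordinates (helper124)

A variant of `Cfsg.Agent.PermutationGroups.OnanScott.onan_scott` (same proof) which keeps the coordinates `N ≃* ∏ T i`
given by the minimal normal subgroups `T i` of `N`:
* `dichotomy` : `K ⊓ N` is a product of proper subgroups `P i < T i` of the same index, or `#(K ⊓ N) = #T ^ l` with
  `2 l ≤ m`.
-/

set_option autoImplicit false

namespace Cfsg.Agent.H124.OSCoord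

open Subgroup Cfsg.Agent.Lib.MinNormal Cfsg.Agent.Lib.MinNormalNonabelian
open Cfsg.Agent.PermutationGroups.Subdirect Cfsg.Agent.PermutationGroups.OnanScott

variable {G : Type*} [Group G]

/-- Coordinates on a non-abelian minimal normal subgroup. -/
structure Coo (N : Subgroup G) {m : ℕ} (T : Fin m → Subgroup G) (e : N ≃* (∀ i, T i)) : Prop where
  hm : 0 < m
  simple : ∀ i, IsSimpleGroup (T i)
  na : ∀ i, ∃ a b : T i, a * b ≠ b * a
  inj : Function.Injective T
  le : ∀ i, T i ≤ N
  norm : ∀ i, N ≤ normalizer (T i : Set G)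
  conj : ∀ (g : G) i, ∃ j, T j = (T i).map (MulAut.conj g).toMonoidHom
  trans : ∀ i j, ∃ g : G, T j = (T i).map (MulAut.conj g).toMonoidHom
  single : ∀ i (t : T i), ((e.symm (Pi.mulSingle i t) : N) : G) = t
  coord : ∀ (n : N) i, e n i = 1 ↔ ∀ t ∈ T i, Commute (n : G) t

theorem exists_coo [Finite G] (N : Subgroup G) [N.Normal]
    (hmin : ∀ M : Subgroup G, M.Normal → M ≤ N → M = ⊥ ∨ M = N)
    (hna : ¬ ∀ x ∈ N, ∀ y ∈ N, Commute x y) :
    ∃ (m : ℕ) (T : Fin m → Subgroup G) (e : N ≃* (∀ i, T i)), Coo N T e := by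
  obtain ⟨m, T, e, h1, h2, h3, h4, h5, h6, h7, h8, h9, h10⟩ := exists_coordinates N hmin hna
  exact ⟨m, T, e, h1, h2, h3, h4, h5, h6, h7, h8, h9, h10⟩

/-- the number of functions constant on the classes of `c` -/
theorem card_const {m k : ℕ} {T' : Type*} [Finite T'] (c : Fin m → Fin m)
    (hc : ∀ j : Fin m, Nat.card {i : Fin m // c i = j} = k ∨ Nat.card {i : Fin m // c i = j} = 0) :
    ∃ l, k * l = m ∧ Nat.card {f : Fin m → T' // ∀ i j, c i = c j → f i = f j} = Nat.card T' ^ l := by
  refine ⟨Nat.card (Set.range c), ?_, ?_⟩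
  · have h1 : m = ∑ j : Fin m, Nat.card {i : Fin m // c i = j} := by
      rw [← Nat.card_sigma, ← Nat.card_congr (Equiv.sigmaFiberEquiv c).symm, Nat.card_eq_fintype_card,
        Fintype.card_fin]
    have h2 : ∀ j : Fin m, Nat.card {i : Fin m // c i = j} = if j ∈ Set.range c then k else 0 := by
      intro j
      split_ifs with hj
      · rcases hc j with h | h
        · exact h
        · exfalso
          obtain ⟨i, hi⟩ := hj
          have : Nonempty {i : Fin m // c i = j} := ⟨⟨i, hi⟩⟩
          exact (Nat.card_pos (α := {i : Fin m // c i = j})).ne' h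
      · have : IsEmpty {i : Fin m // c i = j} := ⟨fun l => hj ⟨l.1, l.2⟩⟩
        exact Nat.card_of_isEmpty
    classical
    conv_rhs => rw [h1]
    rw [Finset.sum_congr rfl (fun j _ => h2 j), Finset.sum_ite, Finset.sum_const_zero, add_zero, Finset.sum_const,
      smul_eq_mul, mul_comm, Nat.card_eq_fintype_card, Fintype.card_subtype]
  · rw [← Nat.card_fun]
    refine Nat.card_congr ?_
    refine ⟨fun f x => f.1 x.2.choose, fun g => ⟨fun i => g ⟨c i, i, rfl⟩, fun i j h => ?_⟩, fun f => ?_, fun g => ?_⟩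
    · exact congrArg g (Subtype.ext h)
    · apply Subtype.ext
      funext i
      exact f.2 _ _ (⟨c i, i, rfl⟩ : Set.range c).2.choose_spec
    · funext x
      exact congrArg g (Subtype.ext x.2.choose_spec)

variable {N : Subgroup G} {m : ℕ} {T : Fin m → Subgroup G} {e : N ≃* (∀ i, T i)}

/-- The O'Nan-Scott dichotomy in given coordinates. -/
theorem Coo.dichotomy [Finite G] [N.Normal] (C : Coo N T e) (K : Subgroup G)
    (hKN : ∀ g : G, ∃ n ∈ N, g * n ∈ K) (hNK : ¬ N ≤ K)
    (hmax : ∀ X ≤ N, K ⊓ N ≤ X → K ≤ normalizer (X : Set G) → X = K ⊓ N ∨ X = N) :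
    (∃ P : ∀ i, Subgroup (T i), (∀ i, P i ≠ ⊤) ∧ (∀ i j, (P i).index = (P j).index) ∧
      ∀ n : N, (n : G) ∈ K ↔ ∀ i, e n i ∈ P i) ∨
    (∃ l, 2 * l ≤ m ∧ ∀ i, Nat.card ↥(K ⊓ N) = Nat.card (T i) ^ l) := by
  obtain ⟨hm, hsimple, hTna, hTinj, hTN, hTn, hconj, htrans, he, hcoord⟩ := C
  -- `K` permutes the factors transitively
  have htransK : ∀ i j, ∃ k ∈ K, T j = (T i).map (MulAut.conj k).toMonoidHom := by
    intro i j
    obtain ⟨g, hg⟩ := htrans i j
    obtain ⟨n, hn, hgn⟩ := hKN g
    refine ⟨g * n, hgn, ?_⟩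
    have h1 : (T i).map (MulAut.conj n).toMonoidHom = T i :=
      mem_normalizer_iff_map_conj_eq.mp (hTn i hn)
    rw [← map_conj_map_conj, h1, hg]
  -- conjugation by `k`
  have hcj : ∀ (k : G) (n : N), k * (n : G) * k⁻¹ ∈ N := fun k n =>
    (inferInstance : N.Normal).conj_mem _ n.2 k
  let cj : G → N → N := fun k n => ⟨k * (n : G) * k⁻¹, hcj k n⟩
  have hcj_mul : ∀ k x y, cj k (x * y) = cj k x * cj k y := by
    intro k x y
    apply Subtype.ext
    change k * ((x : G) * (y : G)) * k⁻¹ = (k * (x : G) * k⁻¹) * (k * (y : G) * k⁻¹)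
    group
  have hcj_inv : ∀ k x, cj k (x⁻¹) = (cj k x)⁻¹ := by
    intro k x
    apply Subtype.ext
    change k * ((x : G)⁻¹) * k⁻¹ = (k * (x : G) * k⁻¹)⁻¹
    group
  have hcj_cj : ∀ k x, cj k (cj k⁻¹ x) = x := by
    intro k x
    apply Subtype.ext
    change k * (k⁻¹ * (x : G) * k⁻¹⁻¹) * k⁻¹ = x
    group
  -- coordinates and conjugation
  have hone : ∀ (k : G) (i j : Fin m), T j = (T i).map (MulAut.conj k).toMonoidHom →
      ∀ n : N, e (cj k n) j = 1 ↔ e n i = 1 := by
    intro k i j hij n
    rw [hcoord, hcoord, hij]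
    constructor
    · intro h t ht
      have h1 := h (k * t * k⁻¹) ⟨t, ht, rfl⟩
      have h2 : k * (n : G) * k⁻¹ * (k * t * k⁻¹) = k * t * k⁻¹ * (k * (n : G) * k⁻¹) := h1
      have h3 : k * ((n : G) * t) * k⁻¹ = k * (t * (n : G)) * k⁻¹ := by
        calc k * ((n : G) * t) * k⁻¹ = k * (n : G) * k⁻¹ * (k * t * k⁻¹) := by group
          _ = k * t * k⁻¹ * (k * (n : G) * k⁻¹) := h2
          _ = k * (t * (n : G)) * k⁻¹ := by group
      exact mul_left_cancel (mul_right_cancel h3)
    · rintro h _ ⟨t, ht, rfl⟩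
      exact (h t ht).map (MulAut.conj k)
  have heq : ∀ (k : G) (i j : Fin m), T j = (T i).map (MulAut.conj k).toMonoidHom →
      ∀ x y : N, e (cj k x) j = e (cj k y) j ↔ e x i = e y i := by
    intro k i j hij x y
    have h := hone k i j hij (x * y⁻¹)
    rw [hcj_mul, hcj_inv, map_mul, map_mul, map_inv, map_inv, Pi.mul_apply, Pi.mul_apply,
      Pi.inv_apply, Pi.inv_apply, mul_inv_eq_one, mul_inv_eq_one] at h
    exact h
  -- the image of `K ⊓ N`
  let M : Subgroup (∀ i, T i) := K.comap (N.subtype.comp e.symm.toMonoidHom)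
  have hM : ∀ y, y ∈ M ↔ ((e.symm y : N) : G) ∈ K := fun y => Iff.rfl
  have hM' : ∀ n : N, e n ∈ M ↔ (n : G) ∈ K := by
    intro n
    rw [hM, MulEquiv.symm_apply_apply]
  have hcjM : ∀ k ∈ K, ∀ n : N, (n : G) ∈ K → ((cj k n : N) : G) ∈ K := fun k hk n hn =>
    K.mul_mem (K.mul_mem hk hn) (K.inv_mem hk)
  -- a model of the simple factor in `Type`
  obtain ⟨T', inst, ⟨f⟩⟩ := exists_type_zero_model (T ⟨0, hm⟩)
  have hψ : ∀ i, Nonempty (T i ≃* T') := by
    intro i
    obtain ⟨g, hg⟩ := htrans ⟨0, hm⟩ i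
    exact ⟨(((T ⟨0, hm⟩).equivMapOfInjective _ (MulAut.conj g).injective).trans
      (MulEquiv.subgroupCongr hg.symm)).symm.trans f.symm⟩
  have ψ : ∀ i, T i ≃* T' := fun i => (hψ i).some
  have hT'simple : IsSimpleGroup T' := by
    have := hsimple ⟨0, hm⟩
    exact (MulEquiv.isSimpleGroup_congr f).mpr this
  have hT'na : ¬ IsMulCommutative T' := by
    intro h
    obtain ⟨a, b, hab⟩ := hTna ⟨0, hm⟩
    apply hab
    apply f.symm.injective
    rw [map_mul, map_mul]
    exact h.is_comm.comm _ _
  by_cases hsurj : ∀ i, ∀ t : T i, ∃ x ∈ M, x i = t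
  · -- all projections are onto
    obtain ⟨c, φ, hcc, hcrel, hφ, hMc⟩ := subdirect_structure hTna M hsurj
    -- the relation is `K`-invariant
    have hcK : ∀ k ∈ K, ∀ i j i' j', T i' = (T i).map (MulAut.conj k).toMonoidHom →
        T j' = (T j).map (MulAut.conj k).toMonoidHom → c i = c j → c i' = c j' := by
      intro k hk i j i' j' hi' hj' hij
      rw [hcrel] at hij ⊢
      intro x hx hxj'
      have hx1 : ((e.symm x : N) : G) ∈ K := hx
      have hx2 : e (cj k⁻¹ (e.symm x)) ∈ M := by
        rw [hM']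
        exact hcjM _ (K.inv_mem hk) _ hx1
      have h1 : e (cj k⁻¹ (e.symm x)) j = 1 := by
        rw [← hone k j j' hj', hcj_cj, MulEquiv.apply_symm_apply]
        exact hxj'
      have h2 := hij _ hx2 h1
      rw [← hone k i i' hi', hcj_cj, MulEquiv.apply_symm_apply] at h2
      exact h2
    -- class sizes
    have hle : ∀ i j, Nat.card {l // c l = c i} ≤ Nat.card {l // c l = c j} := by
      intro i j
      obtain ⟨k, hk, hkij⟩ := htransK i j
      choose σ hσ using hconj k
      have hσinj : Function.Injective σ := by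
        intro a b hab
        apply hTinj
        have h1 := hσ a
        rw [hab, hσ b] at h1
        exact (Subgroup.map_injective (MulAut.conj k).injective h1).symm
      refine Nat.card_le_card_of_injective
        (fun l : {l // c l = c i} => (⟨σ l, hcK k hk l i (σ l) j (hσ l) hkij l.2⟩ :
          {l // c l = c j})) ?_
      intro a b hab
      exact Subtype.ext (hσinj (congrArg Subtype.val hab))
    have hcard : ∀ i j, Nat.card {l // c l = c i} = Nat.card {l // c l = c j} := fun i j =>
      le_antisymm (hle i j) (hle j i)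
    have hkey : ∀ (r : Fin m), c r = r → ∀ y : T r, ψ (c r) ((φ r).symm y) = ψ r y := by
      intro r hr y
      obtain ⟨x, hx, rfl⟩ := hsurj r y
      have h1 : (φ r).symm (x r) = x (c r) := by
        rw [MulEquiv.symm_apply_eq, hφ x hx]
      rw [h1]
      have h2 : ∀ s, s = r → ψ s (x s) = ψ r (x r) := by
        rintro s rfl
        rfl
      exact h2 _ hr
    have hfin : Finite T' := Finite.of_equiv _ f.symm.toEquiv
    obtain ⟨l, hl, hcl⟩ := card_const (T' := T') c (k := Nat.card {l // c l = c ⟨0, hm⟩}) (fun j => by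
      by_cases hj : ∃ i, c i = j
      · obtain ⟨i, rfl⟩ := hj
        left
        exact hcard i ⟨0, hm⟩
      · right
        have : IsEmpty {i // c i = j} := ⟨fun l => hj ⟨l.1, l.2⟩⟩
        exact Nat.card_of_isEmpty)
    have hk2 : 2 ≤ Nat.card {l // c l = c ⟨0, hm⟩} := by
      by_contra hlt
      push Not at hlt
      apply hNK
      have hinj : Function.Injective c := by
        intro i j hij
        have h1 : Nat.card {l // c l = c j} ≤ 1 := by
          rw [hcard j ⟨0, hm⟩]; omega
        have h2 : Subsingleton {l // c l = c j} := by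
          rw [← Finite.card_le_one_iff_subsingleton]; exact h1
        exact congrArg Subtype.val (Subsingleton.elim (⟨i, hij⟩ : {l // c l = c j}) ⟨j, rfl⟩)
      have hall : ∀ y, y ∈ M := by
        intro y
        obtain ⟨x, hx, hxy⟩ := exists_mem_eq_on hTna M hsurj Set.univ (by
          intro r _ s _ hne
          by_contra hcon
          push Not at hcon
          exact hne (hinj ((hcrel r s).mpr hcon))) y
        have : x = y := funext fun i => hxy i (Set.mem_univ i)
        exact this ▸ hx
      intro n hn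
      have := hall (e ⟨n, hn⟩)
      rwa [hM'] at this
    let E : N ≃* (Fin m → T') := e.trans (MulEquiv.piCongrRight fun i => (φ i).symm.trans (ψ (c i)))
    have hE : ∀ n : N, (n : G) ∈ K ↔ ∀ i j, c i = c j → E n i = E n j := by
      intro n
      rw [← hM']
      have hval : ∀ i, E n i = ψ (c i) ((φ i).symm (e n i)) := fun i => rfl
      simp only [hval]
      constructor
      · intro hn i j hij
        have h1 : ∀ i, (φ i).symm (e n i) = e n (c i) := fun i => by
          rw [MulEquiv.symm_apply_eq, hφ _ hn]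
        rw [h1, h1]
        have h2 : ∀ r s, r = s → ψ r (e n r) = ψ s (e n s) := by
          rintro r s rfl
          rfl
        exact h2 _ _ hij
      · intro h
        rw [hMc]
        intro i
        have h1 := h i (c i) (hcc i).symm
        rw [hkey (c i) (hcc i)] at h1
        have h2 := (ψ (c i)).injective h1
        rw [MulEquiv.symm_apply_eq] at h2
        exact h2
    right
    refine ⟨l, ?_, fun i => ?_⟩
    · calc 2 * l ≤ Nat.card {l // c l = c ⟨0, hm⟩} * l := Nat.mul_le_mul_right _ hk2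
        _ = m := hl
    · rw [Nat.card_congr (ψ i).toEquiv, ← hcl]
      refine Nat.card_congr ⟨fun n => ⟨E ⟨n.1, n.2.2⟩, (hE ⟨n.1, n.2.2⟩).1 n.2.1⟩,
        fun f => ⟨(E.symm f.1 : G), (hE (E.symm f.1)).2 (by rw [MulEquiv.apply_symm_apply]; exact f.2),
          (E.symm f.1).2⟩, fun n => ?_, fun f => ?_⟩
      · apply Subtype.ext
        change ((E.symm (E ⟨n.1, n.2.2⟩) : N) : G) = n.1
        rw [MulEquiv.symm_apply_apply]
      · apply Subtype.ext
        change E ⟨((E.symm f.1 : N) : G), _⟩ = f.1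
        have : (⟨((E.symm f.1 : N) : G), (E.symm f.1).2⟩ : N) = E.symm f.1 := rfl
        rw [this, MulEquiv.apply_symm_apply]
  · -- some projection is proper
    push Not at hsurj
    obtain ⟨i₀, t₀, ht₀⟩ := hsurj
    let P : ∀ i, Subgroup (T i) := fun i => M.map (Pi.evalMonoidHom _ i)
    have hP : ∀ i t, t ∈ P i ↔ ∃ x ∈ M, x i = t := fun i t => Iff.rfl
    -- transfer of membership by conjugation
    have hPK : ∀ k ∈ K, ∀ i j, T j = (T i).map (MulAut.conj k).toMonoidHom →
        ∀ n : N, e n i ∈ P i → e (cj k n) j ∈ P j := by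
      intro k hk i j hij n hn
      obtain ⟨x, hx, hxi⟩ := hn
      refine ⟨e (cj k (e.symm x)), ?_, ?_⟩
      · change e (cj k (e.symm x)) ∈ M
        rw [hM']
        exact hcjM k hk _ hx
      · change e (cj k (e.symm x)) j = e (cj k n) j
        rw [heq k i j hij, MulEquiv.apply_symm_apply]
        exact hxi
    have hPtop : ∀ i, P i ≠ ⊤ := by
      intro i hi
      obtain ⟨k, hk, hkij⟩ := htransK i i₀
      have h1 := hPK k hk i i₀ hkij (cj k⁻¹ (e.symm (Pi.mulSingle i₀ t₀)))
        (by rw [hi]; exact mem_top _)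
      rw [hcj_cj, MulEquiv.apply_symm_apply, Pi.mulSingle_eq_same] at h1
      obtain ⟨x, hx, hxt⟩ := h1
      exact ht₀ x hx hxt
    -- the product of the projections
    let X' : Subgroup N :=
      { carrier := {n | ∀ i, e n i ∈ P i}
        one_mem' := fun i => by rw [map_one]; exact (P i).one_mem
        mul_mem' := fun {a b} ha hb i => by
          rw [map_mul]; exact (P i).mul_mem (ha i) (hb i)
        inv_mem' := fun {a} ha i => by rw [map_inv]; exact (P i).inv_mem (ha i) }
    have hX'mem : ∀ n, n ∈ X' ↔ ∀ i, e n i ∈ P i := fun n => Iff.rfl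
    let X : Subgroup G := X'.map N.subtype
    have hXmem : ∀ n : N, (n : G) ∈ X ↔ ∀ i, e n i ∈ P i := by
      intro n
      rw [← hX'mem]
      constructor
      · rintro ⟨y, hy, hyn⟩
        have : y = n := Subtype.ext hyn
        exact this ▸ hy
      · intro h
        exact ⟨n, h, rfl⟩
    have hXN : X ≤ N := map_subtype_le X'
    have hKX : K ⊓ N ≤ X := by
      intro x hx
      have h1 : ((⟨x, hx.2⟩ : N) : G) ∈ X := by
        rw [hXmem]
        intro i
        exact ⟨e ⟨x, hx.2⟩, (hM' _).mpr hx.1, rfl⟩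
      exact h1
    have hKnX : K ≤ normalizer (X : Set G) := by
      rw [le_normalizer_iff]
      intro k hk x hx
      have hxN : x ∈ N := hXN hx
      have h1 : ∀ i, e ⟨x, hxN⟩ i ∈ P i := (hXmem ⟨x, hxN⟩).mp hx
      have h2 : ((cj k ⟨x, hxN⟩ : N) : G) ∈ X := by
        rw [hXmem]
        intro j
        obtain ⟨i, hi⟩ := hconj k⁻¹ j
        have hij : T j = (T i).map (MulAut.conj k).toMonoidHom := by
          rw [hi, map_conj_map_conj, mul_inv_cancel, map_conj_one]
        exact hPK k hk i j hij _ (h1 i)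
      exact h2
    have hXK : X = K ⊓ N := by
      rcases hmax X hXN hKX hKnX with h | h
      · exact h
      · exfalso
        apply hPtop i₀
        rw [eq_top_iff]
        intro t _
        have h1 : ((e.symm (Pi.mulSingle i₀ t) : N) : G) ∈ X := by
          rw [h]; exact (e.symm (Pi.mulSingle i₀ t) : N).2
        rw [hXmem] at h1
        have h2 := h1 i₀
        rwa [MulEquiv.apply_symm_apply, Pi.mulSingle_eq_same] at h2
    left
    refine ⟨P, hPtop, ?_, ?_⟩
    · -- the indices agree
      have hle : ∀ i j, Nat.card (P i) ≤ Nat.card (P j) := by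
        intro i j
        obtain ⟨k, hk, hkij⟩ := htransK i j
        refine Nat.card_le_card_of_injective (fun t : P i =>
          (⟨e (cj k (e.symm (t.2.choose))) j, hPK k hk i j hkij _ ?_⟩ : P j)) ?_
        · rw [MulEquiv.apply_symm_apply]
          exact ⟨_, t.2.choose_spec.1, rfl⟩
        · intro a b hab
          have h1 : e (cj k (e.symm (a.2.choose))) j = e (cj k (e.symm (b.2.choose))) j :=
            congrArg Subtype.val hab
          rw [heq k i j hkij, MulEquiv.apply_symm_apply, MulEquiv.apply_symm_apply] at h1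
          have h2 : (a.2.choose) i = a.1 := a.2.choose_spec.2
          have h3 : (b.2.choose) i = b.1 := b.2.choose_spec.2
          exact Subtype.ext (by rw [← h2, ← h3, h1])
      intro i j
      have h1 : Nat.card (P i) = Nat.card (P j) := le_antisymm (hle i j) (hle j i)
      have h2 : Nat.card (T i) = Nat.card (T j) := Nat.card_congr ((ψ i).trans (ψ j).symm).toEquiv
      have h3 := (P i).card_mul_index
      have h4 := (P j).card_mul_index
      rw [h1, h2, ← h4] at h3
      exact Nat.eq_of_mul_eq_mul_left Nat.card_pos h3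
    · intro n
      have h1 : (n : G) ∈ K ↔ (n : G) ∈ X := by
        rw [hXK]
        exact ⟨fun h => ⟨h, n.2⟩, fun h => h.1⟩
      rw [h1, hXmem]

end Cfsg.Agent.H124.OSCoord
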