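import Cfsg.Agent.H124.OSCoord
import Cfsg.Agent.Schreier.Basic

/-!
# A simple subgroup and the factors of a non-abelian minimal normal subgroup (helper124)

`Coo N T e` : coordinates on `N` (see `OSCoord`), `S` a non-abelian simple subgroup of `G`.
* `Coo.fix_or_dvd` : `S` normalises every `T i` or `#S ∣ m!`;
* `two_mul_lt` : `r ^ a ∣ m!`, `r` an odd prime: `2 a < m`;
* `inner_of_sch` : if `S` normalises the simple group `T` (with the Schreier property), it acts on it by inner
  automorphisms;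
* `Coo.le_sup_centralizer`, `Coo.exists_hom` : if `S` normalises every `T i` then `S ≤ N C(N)`, and `S` embeds in some
  `T i` unless it centralises `N`.
-/

set_option autoImplicit false

namespace Cfsg.Agent.H124.OSCoord

open Subgroup Cfsg.Agent.Schreier.Basic

variable {G : Type*} [Group G]

/-! ### numbers -/

theorem two_mul_lt {r a m : ℕ} (hr : r.Prime) (hr2 : r ≠ 2) (hm : 0 < m) (h : r ^ a ∣ m.factorial) : 2 * a < m := by
  have : Fact r.Prime := ⟨hr⟩
  have h1 : a ≤ padicValNat r m.factorial := (padicValNat_dvd_iff_le (Nat.factorial_ne_zero m)).1 h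
  have h2 := sub_one_mul_padicValNat_factorial_lt_of_ne_zero r hm.ne'
  have h3 : 2 ≤ r - 1 := by
    have := hr.two_le
    omega
  calc 2 * a ≤ (r - 1) * padicValNat r m.factorial := Nat.mul_le_mul h3 h1
    _ < m := h2

/-! ### simple subgroups -/

/-- a non-abelian simple subgroup is perfect -/
theorem perfect_of_simple {S : Subgroup G} [IsSimpleGroup S] (hna : ¬ IsMulCommutative S) : ⁅S, S⁆ = S := by
  have h1 : commutator S = ⊥ ∨ commutator S = ⊤ :=
    IsSimpleGroup.eq_bot_or_eq_top_of_normal (commutator S) inferInstance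
  rcases h1 with h | h
  · exfalso
    apply hna
    refine ⟨⟨fun a b => ?_⟩⟩
    rw [_root_.commutator_def, commutator_eq_bot_iff_le_centralizer] at h
    exact ((mem_centralizer_iff.1 (h (mem_top a))) b (Set.mem_univ b)).symm
  · have h3 : (commutator S).map S.subtype = ⁅S, S⁆ := by
      rw [_root_.commutator_def, map_commutator, ← MonoidHom.range_eq_map, range_subtype]
    rw [← h3, h, ← MonoidHom.range_eq_map, range_subtype]

/-- a hom from a simple group which is not trivial is injective -/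
theorem hom_trivial_or_injective {S H : Type*} [Group S] [IsSimpleGroup S] [Group H] (f : S →* H) :
    (∀ s, f s = 1) ∨ Function.Injective f := by
  rcases IsSimpleGroup.eq_bot_or_eq_top_of_normal f.ker inferInstance with h | h
  · right
    exact (MonoidHom.ker_eq_bot_iff f).1 h
  · left
    intro s
    have : s ∈ f.ker := by rw [h]; exact mem_top s
    exact this

/-- **Schreier**: a simple group normalising `T` acts on `T` by inner automorphisms. -/
theorem inner_of_sch {S T : Subgroup G} [IsSimpleGroup S] (hna : ¬ IsMulCommutative S)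
    (hT : Sch T) (hn : ∀ s ∈ S, T.map (MulAut.conj s).toMonoidHom = T) {s : G} (hs : s ∈ S) :
    ∃ t ∈ T, ∀ x ∈ T, s * x * s⁻¹ = t * x * t⁻¹ := by
  have hle : S ≤ normalizer (T : Set G) := fun s hs => mem_normalizer_iff_map_conj_eq.mpr (hn s hs)
  let f : S →* MulAut T := T.normalizerMonoidHom.comp (inclusion hle)
  have hf : ∀ (s : S) (x : T), ((f s x : T) : G) = s * x * (s : G)⁻¹ := fun s x => rfl
  have htop : ⁅(⊤ : Subgroup S), (⊤ : Subgroup S)⁆ = ⊤ := by
    have h1 := perfect_of_simple hna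
    apply (Subgroup.map_injective S.subtype_injective)
    rw [map_commutator, ← MonoidHom.range_eq_map, range_subtype, h1]
  have h1 : ⁅(⊤ : Subgroup S).map f, (⊤ : Subgroup S).map f⁆ = (⊤ : Subgroup S).map f := by
    rw [← map_commutator, htop]
  have h2 := (sch_def.1 hT) _ h1
  have h3 : f ⟨s, hs⟩ ∈ (⊤ : Subgroup S).map f := ⟨_, mem_top _, rfl⟩
  obtain ⟨t, ht⟩ := h2 h3
  refine ⟨t, t.2, fun x hx => ?_⟩
  have h4 := congrArg (fun g : MulAut T => ((g ⟨x, hx⟩ : T) : G)) ht
  simp only [hf] at h4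
  rw [← h4]
  rfl

variable {N : Subgroup G} {m : ℕ} {T : Fin m → Subgroup G} {e : N ≃* (∀ i, T i)}

/-! ### the permutation of the factors -/

/-- the permutation of the factors by conjugation -/
theorem Coo.exists_perm (C : Coo N T e) :
    ∃ ρ : G →* Equiv.Perm (Fin m), ∀ g i, T (ρ g i) = (T i).map (MulAut.conj g).toMonoidHom := by
  choose σ hσ using C.conj
  have h1 : ∀ i, σ 1 i = i := by
    intro i
    apply C.inj
    rw [hσ, Cfsg.Agent.Lib.MinNormal.map_conj_one]
  have h2 : ∀ g h i, σ (g * h) i = σ g (σ h i) := by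
    intro g h i
    apply C.inj
    rw [hσ, hσ, hσ, Cfsg.Agent.Lib.MinNormal.map_conj_map_conj]
  let act : MulAction G (Fin m) :=
    { smul := σ, one_smul := h1, mul_smul := h2 }
  exact ⟨@MulAction.toPermHom G (Fin m) _ act, fun g i => hσ g i⟩

theorem Coo.fix_or_dvd (C : Coo N T e) (S : Subgroup G) [IsSimpleGroup S] :
    (∀ s ∈ S, ∀ i, (T i).map (MulAut.conj s).toMonoidHom = T i) ∨ Nat.card S ∣ m.factorial := by
  obtain ⟨ρ, hρ⟩ := C.exists_perm
  rcases hom_trivial_or_injective (ρ.comp S.subtype) with h | h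
  · left
    intro s hs i
    have h1 : ρ s = 1 := h ⟨s, hs⟩
    rw [← hρ s i, h1]
    rfl
  · right
    have h1 := Subgroup.card_dvd_of_injective _ h
    rwa [Nat.card_perm, Nat.card_eq_fintype_card (α := Fin m), Fintype.card_fin] at h1

/-! ### the simple group normalises the factors -/

theorem Coo.commute_of_factors (C : Coo N T e) {g : G} (h : ∀ i, ∀ t ∈ T i, g * t * g⁻¹ = t) :
    g ∈ centralizer (N : Set G) := by
  have h1 : ∀ n : N, g * (n : G) * g⁻¹ = n := by
    intro n
    have h2 : (Subgroup.comap (MulAut.conj g).toMonoidHom ⊤) = ⊤ := rfl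
    -- the subgroup of the elements of `∏ T i` whose preimage commutes with `g`
    let D : Subgroup (∀ i, T i) :=
      { carrier := {x | g * ((e.symm x : N) : G) * g⁻¹ = (e.symm x : N)}
        one_mem' := by
          change g * ((e.symm 1 : N) : G) * g⁻¹ = (e.symm 1 : N)
          rw [map_one]; simp
        mul_mem' := fun {a b} ha hb => by
          change g * ((e.symm (a * b) : N) : G) * g⁻¹ = (e.symm (a * b) : N)
          change g * ((e.symm a : N) : G) * g⁻¹ = (e.symm a : N) at ha
          change g * ((e.symm b : N) : G) * g⁻¹ = (e.symm b : N) at hb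
          rw [map_mul, Subgroup.coe_mul]
          calc g * (((e.symm a : N) : G) * (e.symm b : N)) * g⁻¹
              = (g * ((e.symm a : N) : G) * g⁻¹) * (g * ((e.symm b : N) : G) * g⁻¹) := by group
            _ = _ := by rw [ha, hb]
        inv_mem' := fun {a} ha => by
          change g * ((e.symm a⁻¹ : N) : G) * g⁻¹ = (e.symm a⁻¹ : N)
          change g * ((e.symm a : N) : G) * g⁻¹ = (e.symm a : N) at ha
          rw [map_inv, Subgroup.coe_inv]
          calc g * ((e.symm a : N) : G)⁻¹ * g⁻¹ = (g * ((e.symm a : N) : G) * g⁻¹)⁻¹ := by group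
            _ = _ := by rw [ha] }
    have hD : D = ⊤ := by
      rw [eq_top_iff]
      intro x _
      classical
      have h3 := Subgroup.pi_mem_of_mulSingle_mem x (fun i => (?_ : Pi.mulSingle i (x i) ∈ D))
      · exact h3
      · change g * ((e.symm (Pi.mulSingle i (x i)) : N) : G) * g⁻¹ = (e.symm (Pi.mulSingle i (x i)) : N)
        rw [C.single]
        exact h i _ (x i).2
    have h4 : e n ∈ D := by rw [hD]; exact mem_top _
    change g * ((e.symm (e n) : N) : G) * g⁻¹ = (e.symm (e n) : N) at h4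
    rwa [MulEquiv.symm_apply_apply] at h4
  rw [mem_centralizer_iff]
  intro n hn
  have h5 := h1 ⟨n, hn⟩
  rw [mul_inv_eq_iff_eq_mul] at h5
  exact h5.symm

theorem Coo.le_sup (C : Coo N T e) {S : Subgroup G} [IsSimpleGroup S] (hna : ¬ IsMulCommutative S)
    (hT : ∀ i, Sch (T i)) (hn : ∀ s ∈ S, ∀ i, (T i).map (MulAut.conj s).toMonoidHom = T i) {s : G} (hs : s ∈ S) :
    ∃ n ∈ N, n⁻¹ * s ∈ centralizer (N : Set G) := by
  have h1 : ∀ i, ∃ t ∈ T i, ∀ x ∈ T i, s * x * s⁻¹ = t * x * t⁻¹ := fun i =>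
    inner_of_sch hna (hT i) (fun s hs => hn s hs i) hs
  choose t ht h2 using h1
  let n : N := e.symm (fun i => ⟨t i, ht i⟩)
  have hen : ∀ i, e n i = ⟨t i, ht i⟩ := fun i => by
    change e (e.symm (fun i => ⟨t i, ht i⟩)) i = _
    rw [MulEquiv.apply_symm_apply]
  refine ⟨n, n.2, C.commute_of_factors fun i x hx => ?_⟩
  -- `n` acts on `T i` as `t i`
  have h3 : (n : G) * x * (n : G)⁻¹ = t i * x * (t i)⁻¹ := by
    have h4 : e (⟨t i, C.le i (ht i)⟩⁻¹ * n) i = 1 := by
      rw [map_mul, map_inv, Pi.mul_apply, Pi.inv_apply, hen]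
      have h5 : e ⟨t i, C.le i (ht i)⟩ = Pi.mulSingle i ⟨t i, ht i⟩ := by
        rw [← MulEquiv.eq_symm_apply]
        apply Subtype.ext
        rw [C.single]
      rw [h5, Pi.mulSingle_eq_same, inv_mul_cancel]
    have h6 := (C.coord _ i).1 h4 x hx
    have h7 : (t i)⁻¹ * (n : G) * x = x * ((t i)⁻¹ * (n : G)) := h6
    have h8 : (n : G) * x = t i * x * (t i)⁻¹ * n := by
      calc (n : G) * x = t i * ((t i)⁻¹ * (n : G) * x) := by group
        _ = t i * (x * ((t i)⁻¹ * (n : G))) := by rw [h7]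
        _ = _ := by group
    rw [h8]; group
  have h9 : (n : G)⁻¹ * s * x * ((n : G)⁻¹ * s)⁻¹ = (n : G)⁻¹ * (s * x * s⁻¹) * n := by group
  rw [h9, h2 i x hx, ← h3]
  group

/-- the centre of `T i` is trivial: the element of `T i` inducing a given inner automorphism is unique -/
theorem Coo.factor_center (C : Coo N T e) (i : Fin m) {t : G} (ht : t ∈ T i) (h : ∀ x ∈ T i, t * x * t⁻¹ = x) :
    t = 1 := by
  have h1 : e ⟨t, C.le i ht⟩ i = 1 := (C.coord _ i).2 fun x hx => by
    have := h x hx
    rw [mul_inv_eq_iff_eq_mul] at this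
    exact this
  have h5 : e ⟨t, C.le i ht⟩ = Pi.mulSingle i ⟨t, ht⟩ := by
    rw [← MulEquiv.eq_symm_apply]
    apply Subtype.ext
    rw [C.single]
  rw [h5, Pi.mulSingle_eq_same] at h1
  exact congrArg Subtype.val h1

theorem Coo.exists_hom (C : Coo N T e) {S : Subgroup G} [IsSimpleGroup S] (hna : ¬ IsMulCommutative S)
    (hT : ∀ i, Sch (T i)) (hn : ∀ s ∈ S, ∀ i, (T i).map (MulAut.conj s).toMonoidHom = T i)
    (hS : ¬ S ≤ centralizer (N : Set G)) : ∃ (i : Fin m) (f : S →* T i), Function.Injective f := by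
  have h1 : ∀ i (s : S), ∃ t : T i, ∀ x ∈ T i, (s : G) * x * (s : G)⁻¹ = t * x * (t : G)⁻¹ := fun i s => by
    obtain ⟨t, ht, h⟩ := inner_of_sch hna (hT i) (fun s hs => hn s hs i) s.2
    exact ⟨⟨t, ht⟩, h⟩
  choose t ht using h1
  have huniq : ∀ i (a b : T i), (∀ x ∈ T i, (a : G) * x * (a : G)⁻¹ = b * x * (b : G)⁻¹) → a = b := by
    intro i a b h
    have h2 : ((b : G)⁻¹ * a) = 1 := C.factor_center i ((T i).mul_mem ((T i).inv_mem b.2) a.2) fun x hx => by
      have h3 := h x hx
      calc (b : G)⁻¹ * a * x * ((b : G)⁻¹ * a)⁻¹ = (b : G)⁻¹ * (a * x * (a : G)⁻¹) * b := by group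
        _ = x := by rw [h3]; group
    exact Subtype.ext (by rw [inv_mul_eq_one] at h2; exact h2.symm)
  let f : ∀ i, S →* T i := fun i =>
    { toFun := t i
      map_one' := huniq i _ _ fun x hx => by
        rw [← ht i 1 x hx]; simp
      map_mul' := fun a b => huniq i _ _ fun x hx => by
        rw [← ht i (a * b) x hx]
        have h4 : (t i b : G) * x * (t i b : G)⁻¹ ∈ T i :=
          (T i).mul_mem ((T i).mul_mem (t i b).2 hx) ((T i).inv_mem (t i b).2)
        calc ((a * b : S) : G) * x * ((a * b : S) : G)⁻¹ = a * ((b : G) * x * (b : G)⁻¹) * (a : G)⁻¹ := by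
              rw [Subgroup.coe_mul]; group
          _ = (t i a : G) * ((t i b : G) * x * (t i b : G)⁻¹) * (t i a : G)⁻¹ := by
              rw [ht i b x hx, ht i a _ h4]
          _ = _ := by rw [Subgroup.coe_mul]; group }
  by_contra hcon
  push Not at hcon
  apply hS
  intro s hs
  apply C.commute_of_factors
  intro i x hx
  have h5 : f i ⟨s, hs⟩ = 1 := by
    rcases hom_trivial_or_injective (f i) with h | h
    · exact h _
    · exact absurd h (hcon i (f i))
  have h6 : t i ⟨s, hs⟩ = 1 := h5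
  have h7 := ht i ⟨s, hs⟩ x hx
  rw [h6] at h7
  rw [h7]; simp

end Cfsg.Agent.H124.OSCoord
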